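import Mathlib
import Cfsg.Agent.H914.Gs.SpBase

/-!
# S5719, `PSp_2m(q)`, `q` odd: the elements with `x² = -1` are conjugate (helper500)
-/

set_option autoImplicit false

namespace Cfsg.Agent.H500.IFSp

open Cfsg Module Cfsg.Agent.ClassicalGeometry.SympBasic Cfsg.Agent.ClassicalGeometry.SympSiegel Cfsg.Agent.H914.Gs

variable {F : Type*} [Field F] {m : ℕ}

local notation "V" => (Fin m ⊕ Fin m → F)
local notation "G" => Matrix.symplecticGroup (Fin m) F
local notation "f" => sympForm m F

/-- an orthonormal family for the hermitian form of `x` -/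
structure ON (x : Matrix.symplecticGroup (Fin m) F) {r : ℕ} (v : Fin r → (Fin m ⊕ Fin m → F)) : Prop where
  zero : ∀ i j, sympForm m F (v i) (v j) = 0
  one : ∀ i j, sympForm m F (v i) (x • v j) = if i = j then 1 else 0

theorem symm_of_sq {x : G} (hx : ∀ v : V, x • x • v = -v) (u w : V) : f u (x • w) = f w (x • u) := by
  have h := form_smul x u (x • w)
  rw [hx, sympForm_neg_right, ← sympForm_swap] at h
  exact h.symm

theorem form_xx (x : G) (u w : V) : f (x • u) (x • w) = f u w := form_smul x u w

open Polynomial in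
theorem sum_sq (F : Type*) [Field F] [Fintype F] (h2 : (2 : F) ≠ 0) (x : F) : ∃ a b : F, a ^ 2 + b ^ 2 = x := by
  have hodd : Fintype.card F % 2 = 1 := FiniteField.odd_card_of_char_ne_two (by
    intro hc
    apply h2
    have := ringChar.charP F
    rw [hc] at this
    exact CharTwo.two_eq_zero)
  obtain ⟨a, b, hab⟩ : ∃ a b : F, (X ^ 2 : F[X]).eval a + (X ^ 2 - C x : F[X]).eval b = 0 :=
    FiniteField.exists_root_sum_quadratic (degree_X_pow 2) (degree_X_pow_sub_C (by decide) _) hodd
  refine ⟨a, b, ?_⟩
  rw [← sub_eq_zero]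
  simpa only [eval_C, eval_X, eval_pow, eval_sub, ← add_sub_assoc] using hab

theorem exists_unit_vec [Finite F] (h2 : (2 : F) ≠ 0) {x : G} (hx : ∀ v : V, x • x • v = -v) {W : Submodule F V}
    (hW : ∀ w ∈ W, x • w ∈ W) (hnd : ∀ w ∈ W, (∀ u ∈ W, f w u = 0) → w = 0) (hW0 : W ≠ ⊥) :
    ∃ v ∈ W, f v (x • v) = 1 := by
  have := Fintype.ofFinite F
  obtain ⟨v, hv, hv0⟩ : ∃ v ∈ W, f v (x • v) ≠ 0 := by
    by_contra hcon
    push Not at hcon
    apply hW0
    rw [Submodule.eq_bot_iff]
    intro w hw
    apply hnd w hw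
    intro u hu
    have h1 := hcon (w + x • u) (W.add_mem hw (hW u hu))
    have h3 := hcon w hw
    have h4 := hcon (x • u) (hW u hu)
    rw [smul_add', sympForm_add_left, sympForm_add_right, sympForm_add_right, h3, h4, zero_add, add_zero,
      symm_of_sq hx (x • u) w] at h1
    have h5 : (2 : F) * f w (x • x • u) = 0 := by linear_combination h1
    rw [hx, sympForm_neg_right] at h5
    rcases mul_eq_zero.1 h5 with h6 | h6
    · exact absurd h6 h2
    · exact neg_eq_zero.1 h6
  obtain ⟨a, b, hab⟩ := sum_sq F h2 (f v (x • v))⁻¹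
  refine ⟨a • v + b • (x • v), W.add_mem (W.smul_mem a hv) (W.smul_mem b (hW v hv)), ?_⟩
  have e1 : x • (a • v + b • (x • v)) = a • (x • v) - b • v := by
    rw [smul_add', smul_smul', smul_smul', hx, smul_neg, sub_eq_add_neg]
  rw [e1, sympForm_sub_right, sympForm_add_left, sympForm_add_left, sympForm_smul_left, sympForm_smul_left,
    sympForm_smul_left, sympForm_smul_left, sympForm_smul_right, sympForm_smul_right, sympForm_smul_right,
    sympForm_smul_right, sympForm_self, sympForm_self]
  have e2 : f (x • v) v = -f v (x • v) := sympForm_swap _ _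
  rw [e2]
  have e3 : (a ^ 2 + b ^ 2) * f v (x • v) = 1 := by rw [hab, inv_mul_cancel₀ hv0]
  linear_combination e3

/-- the orthogonal complement of an orthonormal family -/
def compl (x : G) {r : ℕ} (v : Fin r → V) : Submodule F V where
  carrier := {w | ∀ j, f w (v j) = 0 ∧ f w (x • v j) = 0}
  add_mem' := fun {a b} ha hb j => by
    rw [sympForm_add_left, sympForm_add_left, (ha j).1, (ha j).2, (hb j).1, (hb j).2, add_zero]
    exact ⟨rfl, rfl⟩
  zero_mem' := fun j => ⟨sympForm_zero_left _, sympForm_zero_left _⟩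
  smul_mem' := fun c a ha j => by
    rw [sympForm_smul_left, sympForm_smul_left, (ha j).1, (ha j).2, mul_zero]
    exact ⟨rfl, rfl⟩

theorem mem_compl {x : G} {r : ℕ} {v : Fin r → V} {w : V} :
    w ∈ compl x v ↔ ∀ j, f w (v j) = 0 ∧ f w (x • v j) = 0 := Iff.rfl

/-- the projection -/
noncomputable def pj (x : G) {r : ℕ} (v : Fin r → V) (u : V) : V := ∑ j, (f u (x • v j) • v j - f u (v j) • (x • v j))

theorem form_sum_left {ι : Type*} (s : Finset ι) (g : ι → V) (w : V) : f (∑ j ∈ s, g j) w = ∑ j ∈ s, f (g j) w := by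
  classical
  induction s using Finset.induction_on with
  | empty => simp
  | insert a s ha ih => rw [Finset.sum_insert ha, Finset.sum_insert ha, sympForm_add_left, ih]

theorem sub_pj_mem {x : G} (hx : ∀ v : V, x • x • v = -v) {r : ℕ} {v : Fin r → V} (h : ON x v) (u : V) :
    u - pj x v u ∈ compl x v := by
  rw [mem_compl]
  intro k
  have e0 : ∀ j, f (x • v j) (v k) = -(if k = j then (1 : F) else 0) := fun j => by
    rw [sympForm_swap, h.one]
  have e1 : f (pj x v u) (v k) = f u (v k) := by
    rw [pj, form_sum_left]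
    have : ∀ j ∈ (Finset.univ : Finset (Fin r)), f (f u (x • v j) • v j - f u (v j) • (x • v j)) (v k) =
        if k = j then f u (v j) else 0 := by
      intro j _
      rw [sympForm_sub_left, sympForm_smul_left, sympForm_smul_left, h.zero, e0]
      split_ifs <;> ring
    rw [Finset.sum_congr rfl this, Finset.sum_ite_eq, if_pos (Finset.mem_univ k)]
  have e2 : f (pj x v u) (x • v k) = f u (x • v k) := by
    rw [pj, form_sum_left]
    have : ∀ j ∈ (Finset.univ : Finset (Fin r)), f (f u (x • v j) • v j - f u (v j) • (x • v j)) (x • v k) =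
        if j = k then f u (x • v j) else 0 := by
      intro j _
      rw [sympForm_sub_left, sympForm_smul_left, sympForm_smul_left, h.one, form_smul, h.zero]
      split_ifs <;> ring
    rw [Finset.sum_congr rfl this, Finset.sum_ite_eq', if_pos (Finset.mem_univ k)]
  rw [sympForm_sub_left, sympForm_sub_left, e1, e2, sub_self, sub_self]
  exact ⟨rfl, rfl⟩

theorem compl_inv {x : G} (hx : ∀ v : V, x • x • v = -v) {r : ℕ} {v : Fin r → V} {w : V} (hw : w ∈ compl x v) :
    x • w ∈ compl x v := by
  intro j
  obtain ⟨h1, h2⟩ := hw j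
  constructor
  · rw [sympForm_swap, symm_of_sq hx, h2, neg_zero]
  · rw [form_smul, h1]

theorem compl_nd {x : G} (hx : ∀ v : V, x • x • v = -v) {r : ℕ} {v : Fin r → V} (h : ON x v) {w : V}
    (hw : w ∈ compl x v) (h0 : ∀ u ∈ compl x v, f w u = 0) : w = 0 := by
  apply eq_zero_of_forall_sympForm_right
  intro u
  have e1 : f w (pj x v u) = 0 := by
    rw [sympForm_swap, pj, form_sum_left, neg_eq_zero]
    refine Finset.sum_eq_zero fun j _ => ?_
    have h1 := hw j
    rw [sympForm_sub_left, sympForm_smul_left, sympForm_smul_left, sympForm_swap (v j) w, sympForm_swap (x • v j) w,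
      h1.1, h1.2]
    ring
  have e2 := h0 _ (sub_pj_mem hx h u)
  rw [sympForm_sub_right, e1, sub_zero] at e2
  exact e2

theorem exists_on [Finite F] (h2 : (2 : F) ≠ 0) {x : G} (hx : ∀ v : V, x • x • v = -v) :
    ∀ r : ℕ, r ≤ m → ∃ v : Fin r → V, ON x v := by
  intro r
  induction r with
  | zero => exact fun _ => ⟨Fin.elim0, ⟨fun i => i.elim0, fun i => i.elim0⟩⟩
  | succ r ih =>
    intro hr
    obtain ⟨v, hv⟩ := ih (by omega)
    have hne : compl x v ≠ ⊥ := by
      intro hbot
      -- `V` is spanned by `2 r` vectors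
      have hspan : (⊤ : Submodule F V) ≤ Submodule.span F (Set.range (Sum.elim v fun j => x • v j)) := by
        intro u _
        have h1 := sub_pj_mem hx hv u
        rw [hbot, Submodule.mem_bot, sub_eq_zero] at h1
        rw [h1, pj]
        refine Submodule.sum_mem _ fun j _ => Submodule.sub_mem _ (Submodule.smul_mem _ _ (Submodule.subset_span ?_))
          (Submodule.smul_mem _ _ (Submodule.subset_span ?_))
        · exact ⟨Sum.inl j, rfl⟩
        · exact ⟨Sum.inr j, rfl⟩
      have h1 := Submodule.finrank_mono hspan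
      have h3 := finrank_range_le_card (R := F) (Sum.elim v fun j => x • v j)
      rw [finrank_top, finrank_fintype_fun_eq_card, Fintype.card_sum, Fintype.card_fin] at h1
      rw [Fintype.card_sum, Fintype.card_fin] at h3
      have h4 : Set.finrank F (Set.range (Sum.elim v fun j => x • v j)) =
        finrank F (Submodule.span F (Set.range (Sum.elim v fun j => x • v j))) := rfl
      omega
    obtain ⟨w, hw, hw1⟩ := exists_unit_vec h2 hx (fun w hw => compl_inv hx hw) (fun w hw => compl_nd hx hv hw) hne
    refine ⟨Fin.cons w v, ⟨?_, ?_⟩⟩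
    · intro i j
      refine Fin.cases ?_ (fun i => ?_) i <;> refine Fin.cases ?_ (fun j => ?_) j
      · rw [Fin.cons_zero, sympForm_self]
      · rw [Fin.cons_zero, Fin.cons_succ, (hw j).1]
      · rw [Fin.cons_zero, Fin.cons_succ, sympForm_swap, (hw i).1, neg_zero]
      · rw [Fin.cons_succ, Fin.cons_succ, hv.zero]
    · intro i j
      refine Fin.cases ?_ (fun i => ?_) i <;> refine Fin.cases ?_ (fun j => ?_) j
      · rw [Fin.cons_zero, hw1, if_pos rfl]
      · rw [Fin.cons_zero, Fin.cons_succ, (hw j).2, if_neg (Fin.succ_ne_zero j).symm]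
      · rw [Fin.cons_zero, Fin.cons_succ, symm_of_sq hx, (hw i).2, if_neg (Fin.succ_ne_zero i)]
      · rw [Fin.cons_succ, Fin.cons_succ, hv.one]
        simp only [Fin.succ_inj]

theorem ON.linInd {x : G} (hx : ∀ v : V, x • x • v = -v) {r : ℕ} {v : Fin r → V} (h : ON x v) :
    LinearIndependent F (Sum.elim v fun j => x • v j) := by
  rw [Fintype.linearIndependent_iff]
  intro g hg
  rw [Fintype.sum_sum_type] at hg
  simp only [Sum.elim_inl, Sum.elim_inr] at hg
  have e0 : ∀ j k, f (x • v j) (v k) = -(if k = j then (1 : F) else 0) := fun j k => by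
    rw [sympForm_swap, h.one]
  rintro (k | k)
  · have h1 : f (∑ j, g (Sum.inl j) • v j + ∑ j, g (Sum.inr j) • (x • v j)) (x • v k) = 0 := by
      rw [hg, sympForm_zero_left]
    rw [sympForm_add_left, form_sum_left, form_sum_left] at h1
    simp only [sympForm_smul_left, h.one, form_smul, h.zero, mul_ite, mul_one, mul_zero, Finset.sum_ite_eq',
      Finset.mem_univ, if_true, Finset.sum_const_zero, add_zero] at h1
    exact h1
  · have h1 : f (∑ j, g (Sum.inl j) • v j + ∑ j, g (Sum.inr j) • (x • v j)) (v k) = 0 := by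
      rw [hg, sympForm_zero_left]
    rw [sympForm_add_left, form_sum_left, form_sum_left] at h1
    simp only [sympForm_smul_left, e0, h.zero, mul_zero, Finset.sum_const_zero, zero_add, mul_neg, mul_ite, mul_one,
      Finset.sum_neg_distrib, Finset.sum_ite_eq, Finset.mem_univ, if_true, neg_eq_zero] at h1
    exact h1

/-- **Elements with square `-1` are conjugate.** -/
theorem conj_of_sq [Finite F] (h2 : (2 : F) ≠ 0) {x y : G} (hx : ∀ v : V, x • x • v = -v)
    (hy : ∀ v : V, y • y • v = -v) : ∃ h : G, h * x * h⁻¹ = y := by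
  obtain ⟨v, hv⟩ := exists_on h2 hx m le_rfl
  obtain ⟨w, hw⟩ := exists_on h2 hy m le_rfl
  have lv := hv.linInd hx
  have lw := hw.linInd hy
  obtain ⟨h, hh⟩ := witt _ _ lv lw (by
    have e0 : ∀ j k, f (x • v j) (v k) = -(if k = j then (1 : F) else 0) := fun j k => by
      rw [sympForm_swap, hv.one]
    have e0' : ∀ j k, f (y • w j) (w k) = -(if k = j then (1 : F) else 0) := fun j k => by
      rw [sympForm_swap, hw.one]
    rintro (i | i) (j | j)
    · simp only [Sum.elim_inl, hv.zero, hw.zero]
    · simp only [Sum.elim_inl, Sum.elim_inr, hv.one, hw.one]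
    · simp only [Sum.elim_inl, Sum.elim_inr, e0, e0']
    · simp only [Sum.elim_inr, form_smul, hv.zero, hw.zero])
  refine ⟨h, ?_⟩
  have k1 : ∀ j, h • v j = w j := fun j => hh (Sum.inl j)
  have k2 : ∀ j, h • x • v j = y • w j := fun j => hh (Sum.inr j)
  have hspan : Submodule.span F (Set.range (Sum.elim w fun j => y • w j)) = ⊤ := by
    apply lw.span_eq_top_of_card_eq_finrank'
    rw [finrank_fintype_fun_eq_card]
  apply ext_smul
  intro u
  have hu : u ∈ Submodule.span F (Set.range (Sum.elim w fun j => y • w j)) := by rw [hspan]; trivial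
  refine Submodule.span_induction ?_ ?_ ?_ ?_ hu
  · rintro _ ⟨(j | j), rfl⟩
    · rw [Sum.elim_inl, ← k2 j]
      rw [mul_smul, mul_smul]
      congr 1
      congr 1
      rw [← k1 j, inv_smul_smul]
    · rw [Sum.elim_inr, hy, mul_smul, mul_smul]
      rw [← k2 j, inv_smul_smul, hx, smul_neg', k1 j]
  · rw [smul_zero', smul_zero']
  · intro a b _ _ ha hb
    rw [smul_add', smul_add', ha, hb]
  · intro c a _ ha
    rw [smul_smul', smul_smul', ha]

end Cfsg.Agent.H500.IFSp
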