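import Mathlib
import Cfsg.Agent.H914.Gs.SpBase
import Cfsg.Agent.S0752

/-!
# S5719, `PSp_2m(q)`, `q` odd: the elements with `x² = 1` (helper500)

`types` : adapted symplectic basis.
-/

set_option autoImplicit false

namespace Cfsg.Agent.H500.IFSp

open Cfsg Module Cfsg.Agent.ClassicalGeometry.SympBasic Cfsg.Agent.ClassicalGeometry.SympSiegel Cfsg.Agent.H914.Gs

variable {F : Type*} [Field F] {m : ℕ}

local notation "V" => (Fin m ⊕ Fin m → F)
local notation "G" => Matrix.symplecticGroup (Fin m) F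
local notation "f" => sympForm m F

/-- hyperbolic families -/
structure HP {r : ℕ} (a b : Fin r → (Fin m ⊕ Fin m → F)) : Prop where
  aa : ∀ i j, sympForm m F (a i) (a j) = 0
  bb : ∀ i j, sympForm m F (b i) (b j) = 0
  ab : ∀ i j, sympForm m F (a i) (b j) = if i = j then 1 else 0

theorem exists_hp (W : Submodule F V) (hnd : ∀ w ∈ W, (∀ u ∈ W, f w u = 0) → w = 0) :
    ∃ (r : ℕ) (a b : Fin r → V), HP a b ∧ (∀ i, a i ∈ W) ∧ (∀ i, b i ∈ W) ∧ finrank F W = 2 * r ∧
      W ≤ Submodule.span F (Set.range (Sum.elim a b)) := by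
  obtain ⟨r, k, e, h1, h2, h3, h4⟩ := Cfsg.Agent.S0752.result (LinearMap.BilinForm.restrict (sympBilin m F) W)
    (fun w => sympBilin_isAlt (w : V))
  have hk : k = 0 := by
    rcases Nat.eq_zero_or_pos k with h | h
    · exact h
    · exfalso
      have h5 := h4 ⟨0, h⟩
      have h6 : ((e (Sum.inr ⟨0, h⟩) : W) : V) = 0 := hnd _ (e (Sum.inr ⟨0, h⟩)).2 fun u hu => h5 ⟨u, hu⟩
      exact e.ne_zero (Sum.inr ⟨0, h⟩) (Subtype.ext h6)
  subst hk
  refine ⟨r, fun i => e (Sum.inl (Sum.inl i)), fun i => e (Sum.inl (Sum.inr i)), ⟨h2, h3, h1⟩, fun i => (e _).2,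
    fun i => (e _).2, ?_, ?_⟩
  · rw [finrank_eq_card_basis e, Fintype.card_sum, Fintype.card_sum, Fintype.card_fin, Fintype.card_fin]
    ring
  · intro w hw
    have h5 := e.sum_repr ⟨w, hw⟩
    have h6 := congrArg (Submodule.subtype W) h5
    rw [map_sum] at h6
    change _ = w at h6
    rw [← h6]
    refine Submodule.sum_mem _ fun i _ => ?_
    rw [map_smul]
    refine Submodule.smul_mem _ _ (Submodule.subset_span ?_)
    rcases i with ((i | i) | i)
    · exact ⟨Sum.inl i, rfl⟩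
    · exact ⟨Sum.inr i, rfl⟩
    · exact i.elim0

/-- the eigenspaces -/
def eigS (x : G) (c : F) : Submodule F V where
  carrier := {v | x • v = c • v}
  add_mem' := fun {a b} ha hb => by
    show x • (a + b) = c • (a + b)
    rw [smul_add', smul_add, show x • a = c • a from ha, show x • b = c • b from hb]
  zero_mem' := by
    show x • (0 : V) = c • (0 : V)
    rw [smul_zero', smul_zero]
  smul_mem' := fun d a ha => by
    show x • (d • a) = c • d • a
    rw [smul_smul', show x • a = c • a from ha, smul_comm]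

theorem mem_eigS {x : G} {c : F} {v : V} : v ∈ eigS x c ↔ x • v = c • v := Iff.rfl

theorem eig_orth (h2 : (2 : F) ≠ 0) {x : G} {u w : V} (hu : u ∈ eigS x 1) (hw : w ∈ eigS x (-1)) : f u w = 0 := by
  rw [mem_eigS] at hu hw
  have h := form_smul x u w
  rw [hu, hw, one_smul, neg_smul, one_smul, sympForm_neg_right] at h
  have h3 : (2 : F) * f u w = 0 := by linear_combination -h
  exact (mul_eq_zero.1 h3).resolve_left h2

theorem eig_decomp (h2 : (2 : F) ≠ 0) {x : G} (hx : ∀ v : V, x • x • v = v) (v : V) :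
    ∃ u ∈ eigS x (1 : F), ∃ w ∈ eigS x (-1 : F), v = u + w := by
  refine ⟨(2 : F)⁻¹ • (v + x • v), ?_, (2 : F)⁻¹ • (v - x • v), ?_, ?_⟩
  · rw [mem_eigS, smul_smul', smul_add', hx, one_smul, add_comm]
  · rw [mem_eigS, smul_smul', smul_sub', hx, neg_smul, one_smul, ← smul_neg, neg_sub]
  · rw [← smul_add, add_add_sub_cancel, ← two_smul F v, smul_smul, inv_mul_cancel₀ h2, one_smul]

theorem eig_nd (h2 : (2 : F) ≠ 0) {x : G} (hx : ∀ v : V, x • x • v = v) {c : F} (hc : c = 1 ∨ c = -1) {w : V}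
    (hw : w ∈ eigS x c) (h : ∀ u ∈ eigS x c, f w u = 0) : w = 0 := by
  apply eq_zero_of_forall_sympForm_right
  intro v
  obtain ⟨u, hu, u', hu', rfl⟩ := eig_decomp h2 hx v
  rcases hc with rfl | rfl
  · rw [sympForm_add_right, h u hu, eig_orth h2 hw hu', add_zero]
  · rw [sympForm_add_right, h u' hu', sympForm_swap, eig_orth h2 hu hw, neg_zero, add_zero]

theorem eig_finrank (h2 : (2 : F) ≠ 0) {x : G} (hx : ∀ v : V, x • x • v = v) :
    finrank F (eigS x (1 : F)) + finrank F (eigS x (-1 : F)) = 2 * m := by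
  have h1 : eigS x (1 : F) ⊓ eigS x (-1 : F) = ⊥ := by
    rw [Submodule.eq_bot_iff]
    rintro v ⟨hv, hv'⟩
    have h3 : x • v = (1 : F) • v := hv
    have h4 : x • v = (-1 : F) • v := hv'
    rw [h3, neg_smul, one_smul, ← sub_eq_zero, sub_neg_eq_add, ← two_smul F v] at h4
    exact (smul_eq_zero.1 h4).resolve_left h2
  have h3 : eigS x (1 : F) ⊔ eigS x (-1 : F) = ⊤ := by
    rw [eq_top_iff]
    intro v _
    obtain ⟨u, hu, w, hw, rfl⟩ := eig_decomp h2 hx v
    exact Submodule.add_mem_sup hu hw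
  have h4 := Submodule.finrank_sup_add_finrank_inf_eq (eigS x (1 : F)) (eigS x (-1 : F))
  rw [h1, h3, finrank_top, finrank_bot, finrank_fintype_fun_eq_card, Fintype.card_sum, Fintype.card_fin] at h4
  omega

/-- **Adapted symplectic basis of an element with square 1.** -/
theorem types (h2 : (2 : F) ≠ 0) {x : G} (hx : ∀ v : V, x • x • v = v) :
    ∃ k l : ℕ, k + l = m ∧ finrank F (eigS x (-1 : F)) = 2 * k ∧ finrank F (eigS x (1 : F)) = 2 * l ∧
      (∃ a b : Fin k → V, HP a b ∧ (∀ i, x • a i = -a i) ∧ (∀ i, x • b i = -b i) ∧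
        eigS x (-1 : F) ≤ Submodule.span F (Set.range (Sum.elim a b))) ∧
      ∃ a b : Fin l → V, HP a b ∧ (∀ i, x • a i = a i) ∧ (∀ i, x • b i = b i) ∧
        eigS x (1 : F) ≤ Submodule.span F (Set.range (Sum.elim a b)) := by
  obtain ⟨k, a, b, h, ha, hb, hk, hs⟩ := exists_hp (eigS x (-1 : F)) fun w hw h => eig_nd h2 hx (Or.inr rfl) hw h
  obtain ⟨l, a', b', h', ha', hb', hl, hs'⟩ := exists_hp (eigS x (1 : F)) fun w hw h => eig_nd h2 hx (Or.inl rfl) hw h
  have h1 := eig_finrank h2 hx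
  refine ⟨k, l, by omega, hk, hl, ⟨a, b, h, fun i => ?_, fun i => ?_, hs⟩, ⟨a', b', h', fun i => ?_, fun i => ?_, hs'⟩⟩
  · have := ha i
    rwa [mem_eigS, neg_smul, one_smul] at this
  · have := hb i
    rwa [mem_eigS, neg_smul, one_smul] at this
  · have := ha' i
    rwa [mem_eigS, one_smul] at this
  · have := hb' i
    rwa [mem_eigS, one_smul] at this

/-- fundamental: `x = -1` on a hyperbolic plane -/
theorem fund_of (h2 : (2 : F) ≠ 0) {x : G} (hx : ∀ v : V, x • x • v = v)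
    (h : finrank F (eigS x (-1 : F)) = 2) : ∃ a b : V, f a b = 1 ∧ x • a = -a ∧ x • b = -b ∧
      ∀ v, f v a = 0 → f v b = 0 → x • v = v := by
  obtain ⟨k, l, -, hk, -, ⟨a, b, hab, ha, hb, hs⟩, -⟩ := types h2 hx
  obtain rfl : k = 1 := by omega
  refine ⟨a 0, b 0, by rw [hab.ab, if_pos rfl], ha 0, hb 0, ?_⟩
  intro v hva hvb
  obtain ⟨u, hu, w, hw, rfl⟩ := eig_decomp h2 hx v
  have hua : f u (a 0) = 0 := eig_orth h2 hu (by rw [mem_eigS, ha, neg_smul, one_smul])
  have hub : f u (b 0) = 0 := eig_orth h2 hu (by rw [mem_eigS, hb, neg_smul, one_smul])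
  rw [sympForm_add_left, hua, zero_add] at hva
  rw [sympForm_add_left, hub, zero_add] at hvb
  have hw0 : w = 0 := by
    apply eig_nd h2 hx (Or.inr rfl) hw
    intro y hy
    refine Submodule.span_induction ?_ (sympForm_zero_right _) ?_ ?_ (hs hy)
    · rintro _ ⟨(i | i), rfl⟩
      · rw [Subsingleton.elim i 0]
        exact hva
      · rw [Subsingleton.elim i 0]
        exact hvb
    · intro p q _ _ hp hq
      rw [sympForm_add_right, hp, hq, add_zero]
    · intro c p _ hp
      rw [sympForm_smul_right, hp, mul_zero]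
  rw [hw0, add_zero]
  have := hu
  rwa [mem_eigS, one_smul] at this

end Cfsg.Agent.H500.IFSp
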