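import Mathlib
import Cfsg.Agent.H500.IF.SpSplit
import Cfsg.Agent.H500.IF.SpTypes
import Cfsg.Agent.H847.IF.Lift
import Cfsg.Agent.H209.IF.Kill
import Cfsg.Agent.LieClassical.SympCenter

/-!
# S5719, `PSp_2m(q)`, `q` odd, `m = 3, 4`: assembly (helper500)
-/

set_option autoImplicit false

namespace Cfsg.Agent.H500.IFSp

open Cfsg Module Cfsg.Agent.ClassicalGeometry.SympBasic Cfsg.Agent.ClassicalGeometry.SympSiegel Cfsg.Agent.H914.Gs
  Cfsg.Agent.H209.Fxy

variable {F : Type*} [Field F] {m : ℕ}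

local notation "V" => (Fin m ⊕ Fin m → F)
local notation "G" => Matrix.symplecticGroup (Fin m) F
local notation "f" => sympForm m F

/-- fundamental involutions: `-1` on a hyperbolic plane, `1` on its orthogonal -/
def Fundl (x : G) : Prop := ∃ a b : V, f a b = 1 ∧ x • a = -a ∧ x • b = -b ∧
  ∀ v, f v a = 0 → f v b = 0 → x • v = v

/-- `-1` -/
def nu (m : ℕ) (F : Type*) [Field F] : Matrix.symplecticGroup (Fin m) F :=
  ⟨(-1 : F) • 1, Cfsg.Agent.LieClassical.SympCenter.smul_one_mem m (by ring)⟩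

theorem nu_smul (v : V) : nu m F • v = -v := by
  show ((-1 : F) • (1 : Matrix (Fin m ⊕ Fin m) (Fin m ⊕ Fin m) F)).mulVec v = -v
  rw [Matrix.smul_mulVec, Matrix.one_mulVec, neg_smul, one_smul]

theorem nu_mem : nu m F ∈ Subgroup.center (Matrix.symplecticGroup (Fin m) F) :=
  (Cfsg.Agent.LieClassical.SympCenter.mem_center_iff m _).2 ⟨-1, rfl⟩

theorem mem_center_of {x : G} (h : (∀ v : V, x • v = v) ∨ ∀ v : V, x • v = -v) :
    x ∈ Subgroup.center (Matrix.symplecticGroup (Fin m) F) := by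
  rcases h with h | h
  · have : x = 1 := ext_smul fun v => by rw [h, one_smul]
    rw [this]
    exact one_mem _
  · have : x = nu m F := ext_smul fun v => by rw [h, nu_smul]
    rw [this]
    exact nu_mem

theorem of_mem_center (hm : 1 ≤ m) {x : G} (h : x ∈ Subgroup.center (Matrix.symplecticGroup (Fin m) F)) :
    (∀ v : V, x • v = v) ∨ ∀ v : V, x • v = -v := by
  obtain ⟨a, ha⟩ := (Cfsg.Agent.LieClassical.SympCenter.mem_center_iff m _).1 h
  have h1 := Cfsg.Agent.LieClassical.SympCenter.sq_eq_one_of_smul_mem hm (ha ▸ x.2)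
  have h3 : ∀ v : V, x • v = a • v := by
    intro v
    rw [smul_def, ha, Matrix.smul_mulVec, Matrix.one_mulVec]
  rcases mul_self_eq_one_iff.1 h1 with h4 | h4
  · left
    intro v
    rw [h3, h4, one_smul]
  · right
    intro v
    rw [h3, h4, neg_smul, one_smul]

theorem eigS_nu (x : G) (c : F) : eigS (x * nu m F) c = eigS x (-c) := by
  ext v
  rw [mem_eigS, mem_eigS, mul_smul, nu_smul, smul_neg', neg_smul, neg_eq_iff_eq_neg]

/-- the elements of `Â` with square 1 -/
theorem sq_one (h2 : (2 : F) ≠ 0) (h3 : 3 ≤ m) (h4 : m ≤ 4) {H : Subgroup (Matrix.symplecticGroup (Fin m) F)}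
    (hnu : nu m F ∈ H) (hF : ∀ z ∈ H, Fundl z → False)
    (h22 : m = 4 → ∀ x ∈ H, (∀ v : V, x • x • v = v) → finrank F (eigS x (-1 : F)) = 4 → False)
    {x : G} (hx : x ∈ H) (hxx : ∀ v : V, x • x • v = v) : (∀ v : V, x • v = v) ∨ ∀ v : V, x • v = -v := by
  obtain ⟨k, l, hkl, hk, hl, -, -⟩ := types h2 hxx
  have f1 : ∀ y ∈ H, (∀ v : V, y • y • v = v) → finrank F (eigS y (-1 : F)) ≠ 2 := by
    intro y hy hyy h
    exact hF y hy (fund_of h2 hyy h)
  have hk1 : k ≠ 1 := by
    rintro rfl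
    exact f1 x hx hxx hk
  have hl1 : l ≠ 1 := by
    rintro rfl
    refine f1 (x * nu m F) (mul_mem hx hnu) ?_ ?_
    · intro v
      rw [mul_smul, mul_smul, nu_smul, nu_smul, smul_neg', smul_neg', smul_neg', neg_neg, hxx]
    · rw [eigS_nu, neg_neg, hl]
  have h5 : k ≠ 2 ∨ l ≠ 2 := by
    by_contra hcon
    push Not at hcon
    obtain ⟨rfl, rfl⟩ := hcon
    exact h22 (by omega) x hx hxx hk
  have h6 : k = 0 ∨ l = 0 := by omega
  rcases h6 with rfl | rfl
  · left
    intro v
    obtain ⟨u, hu, w, hw, rfl⟩ := eig_decomp h2 hxx v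
    have : eigS x (-1 : F) = ⊥ := Submodule.finrank_eq_zero.1 (by omega)
    rw [this, Submodule.mem_bot] at hw
    rw [hw, add_zero, mem_eigS.1 hu, one_smul]
  · right
    intro v
    obtain ⟨u, hu, w, hw, rfl⟩ := eig_decomp h2 hxx v
    have : eigS x (1 : F) = ⊥ := Submodule.finrank_eq_zero.1 (by omega)
    rw [this, Submodule.mem_bot] at hu
    rw [hu, zero_add, mem_eigS.1 hw, neg_smul, one_smul]

theorem two_ne {F : Type*} [Field F] [Fintype F] (ho : Odd (Fintype.card F)) : (2 : F) ≠ 0 := by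
  intro h
  have h1 := ringChar.charP F
  have h3 : ringChar F = 2 := CharP.eq F h1 (CharTwo.of_one_ne_zero_of_two_eq_zero one_ne_zero h)
  have h4 := (FiniteField.even_card_iff_char_two (F := F)).1 h3
  have h5 := Nat.odd_iff.1 ho
  omega

/-- **Assembly.** -/
theorem cell_of (F : Type) [Field F] [Fintype F] (m : ℕ) (ho : Odd (Fintype.card F)) (h3 : 3 ≤ m) (h4 : m ≤ 4)
    (hs : IsSimpleGroup (PSp m F)) {A : Subgroup (PSp m F)} {Γ : Subgroup (MulAut (PSp m F))} (h : IF A Γ)
    (hF : ∀ z ∈ A.comap (QuotientGroup.mk' (Subgroup.center (Matrix.symplecticGroup (Fin m) F))), Fundl z → False)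
    (h22 : m = 4 → ∀ x ∈ A.comap (QuotientGroup.mk' (Subgroup.center (Matrix.symplecticGroup (Fin m) F))),
      (∀ v : Fin m ⊕ Fin m → F, x • x • v = v) → finrank F (eigS x (-1 : F)) = 4 → False)
    (hfield : ¬ IsSquare (-1 : F) → ∀ {H : Subgroup (Matrix.symplecticGroup (Fin m) F)},
      (∀ y ∈ H, (∀ v : Fin m ⊕ Fin m → F, y • y • v = v) →
        (∀ v : Fin m ⊕ Fin m → F, y • v = v) ∨ ∀ v : Fin m ⊕ Fin m → F, y • v = -v) →
      ∀ {x : Matrix.symplecticGroup (Fin m) F}, (∀ v : Fin m ⊕ Fin m → F, x • x • v = -v) →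
      (∀ B ≤ Subgroup.centralizer ({x} : Set (Matrix.symplecticGroup (Fin m) F)),
        H.relIndex B ^ 5 < (Subgroup.centralizer ({x} : Set (Matrix.symplecticGroup (Fin m) F))).index) → False)
    (hA : ∃ t ∈ A, orderOf t = 2) : False := by
  have : Finite (Matrix.symplecticGroup (Fin m) F) := Subtype.finite
  have : Finite (PSp m F) := Quotient.finite _
  have h2 := two_ne ho
  obtain ⟨t, htA, ht⟩ := hA
  obtain ⟨x, rfl⟩ := QuotientGroup.mk'_surjective (Subgroup.center (Matrix.symplecticGroup (Fin m) F)) t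
  have hnu : nu m F ∈ A.comap (QuotientGroup.mk' (Subgroup.center (Matrix.symplecticGroup (Fin m) F))) := by
    rw [Subgroup.mem_comap]
    have : QuotientGroup.mk' (Subgroup.center (Matrix.symplecticGroup (Fin m) F)) (nu m F) = 1 :=
      (QuotientGroup.eq_one_iff _).2 nu_mem
    rw [this]
    exact one_mem _
  have hx : x ∈ A.comap (QuotientGroup.mk' (Subgroup.center (Matrix.symplecticGroup (Fin m) F))) := htA
  have h0 := fun (y : Matrix.symplecticGroup (Fin m) F)
    (hy : y ∈ A.comap (QuotientGroup.mk' (Subgroup.center (Matrix.symplecticGroup (Fin m) F)))) =>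
    sq_one h2 h3 h4 hnu hF h22 hy
  have ht1 : QuotientGroup.mk' (Subgroup.center (Matrix.symplecticGroup (Fin m) F)) x ≠ 1 := by
    intro h5
    rw [h5, orderOf_one] at ht
    omega
  have ht2 : QuotientGroup.mk' (Subgroup.center (Matrix.symplecticGroup (Fin m) F)) (x * x) = 1 := by
    rw [map_mul, ← pow_two, ← ht, pow_orderOf_eq_one]
  have hxc : x * x ∈ Subgroup.center (Matrix.symplecticGroup (Fin m) F) := (QuotientGroup.eq_one_iff _).1 ht2
  rcases of_mem_center (by omega) hxc with h6 | h6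
  · refine ht1 ((QuotientGroup.eq_one_iff _).2 (mem_center_of (h0 x hx fun v => ?_)))
    rw [← mul_smul]
    exact h6 v
  · have hxx : ∀ v : Fin m ⊕ Fin m → F, x • x • v = -v := fun v => by
      rw [← mul_smul]
      exact h6 v
    have hna : ∃ a b : PSp m F, a * b ≠ b * a := by
      by_contra hcon
      push Not at hcon
      have hn : A.Normal := ⟨fun a ha g => by rw [hcon g a, mul_inv_cancel_right]; exact ha⟩
      rcases hn.eq_bot_or_eq_top with h7 | h7
      · exact h.ne_bot h7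
      · exact h.ne_top h7
    have hE : ∀ B ≤ Subgroup.centralizer ({x} : Set (Matrix.symplecticGroup (Fin m) F)),
        (A.comap (QuotientGroup.mk' (Subgroup.center (Matrix.symplecticGroup (Fin m) F)))).relIndex B ^ 5 <
          (Subgroup.centralizer ({x} : Set (Matrix.symplecticGroup (Fin m) F))).index := by
      intro B hB
      refine Cfsg.Agent.H847.IF.lift_E2 h hna _ (QuotientGroup.mk'_surjective _) htA ht1 ht2 ?_
      intro b hb
      rw [Subgroup.mem_centralizer_singleton_iff.1 (hB hb)]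
    by_cases hsq : IsSquare (-1 : F)
    · obtain ⟨i, hi⟩ := hsq
      exact kill_split h3 h2 hi.symm h0 hxx hE
    · exact hfield hsq h0 hxx hE

end Cfsg.Agent.H500.IFSp
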